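import Mathlib
import Cfsg.Agent.Lib.Helper2.BG.PartnerDefs
import Cfsg.Agent.Lib.Helper35.BG.Basic
import Cfsg.Agent.Lib.Helper35.BG.Hall
import Cfsg.Agent.Lib.Helper67.BG.Basics
import Cfsg.Agent.Lib.Helper67.BG.HallUtil
import Cfsg.Agent.Lib.Helper27.BG.SigmaBasic
import Cfsg.Agent.Lib.Helper47.BG.S1354Core
import Cfsg.Agent.Lib.Helper66.BG.S1367Util

/-!
# Bender–Glauberman 14.7, package PAIR (helper94, for helper2's project BG47)

`M` a coatom, `K` a nontrivial Hall `κ(M)`-subgroup (no cyclicity), `K* = C_{M_σ}(K)`,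
`Z = K K*`.  For `X ≤ K` of prime order and a coatom `L` over `N_G(X)`, `L` has a Hall
`κ(L)`-subgroup `KL ≥ K*` with `KL · C_{L_σ}(KL) = Z` and `X ≤ C_{L_σ}(KL) ≤ K`.

Also `kstar_ne_bot` (package KSTAR, proved here since PAIR needs it).
-/

set_option autoImplicit false

namespace Cfsg.Agent.Lib.Helper94.BG

open Cfsg Cfsg.Agent.Lib.Helper2.BG47 Cfsg.Agent.Lib.Helper35.BG

universe u

/-- `C_{M_σ}(K) ≠ 1` for a nontrivial Hall `κ(M)`-subgroup `K` of a coatom `M`. -/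
theorem kstar_ne_bot {G : Type u} [Group G] [Finite G] (hG : Cfsg.IsMinSimpleOddOrder G)
    (h1430 : type_of% (@Cfsg.CfsgFrozen.S1430 G _ _ hG))
    (M : Subgroup G) (hM : IsCoatom M) (K : Subgroup G)
    (hK : Cfsg.IsPiHallOf (Cfsg.kappa M) K M) (hK1 : K ≠ ⊥) :
    Cfsg.sigmaCore M ⊓ Subgroup.centralizer (K : Set G) ≠ ⊥ := by
  obtain ⟨h30a, -, -⟩ := h1430 M hM K hK hK1
  have hc1 : Nat.card K ≠ 1 := fun h => hK1 (Subgroup.card_eq_one.mp h)
  obtain ⟨p, hp, hpd⟩ := Nat.exists_prime_and_dvd hc1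
  have hpκ : p ∈ Cfsg.kappa M := hK.2.1 p hp hpd
  haveI : Fact p.Prime := ⟨hp⟩
  obtain ⟨P, hPK⟩ := Cfsg.Agent.Lib.Helper47.BG.exists_sylow_le_of_isPiHallOf hK hpκ
  obtain ⟨-, x, hxP, hx1, y, hy, hy1, hxy⟩ := hpκ.2.2.2 P
  have hxK : (x : G) ∈ K := hPK x hxP
  have hx1' : (x : G) ≠ 1 := fun h => hx1 (Subtype.ext h)
  have hmem : y ∈ Cfsg.sigmaCore M ⊓ Subgroup.centralizer ({(x : G)} : Set G) := by
    refine Subgroup.mem_inf.mpr ⟨hy, ?_⟩
    rw [Subgroup.mem_centralizer_iff]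
    intro h hh
    rw [Set.mem_singleton_iff] at hh
    rw [hh]
    exact hxy
  rw [h30a (x : G) hxK hx1'] at hmem
  intro hbot
  rw [hbot, Subgroup.mem_bot] at hmem
  exact hy1 hmem

/-- Package PAIR of helper2's project BG47. -/
theorem lemPair : Cfsg.Agent.Lib.Helper2.BG47.LemPair.{u} := by
  intro G _ _ hG h1378 h1430 h1431 h1432 M hM K hK hK1 X hXK hXp L hL hNX
  classical
  obtain ⟨h30a, -, h30c⟩ := h1430 M hM K hK hK1
  obtain ⟨h31a, h31b, -, -⟩ := h1431 M hM K hK hK1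
  have hMsM : Cfsg.sigmaCore M ≤ M := Cfsg.Agent.Lib.Helper67.BG.sigmaCore_le M
  have hLsL : Cfsg.sigmaCore L ≤ L := Cfsg.Agent.Lib.Helper67.BG.sigmaCore_le L
  have hKM : K ≤ M := hK.1
  have hKs1 : kstar M K ≠ ⊥ := kstar_ne_bot hG h1430 M hM K hK hK1
  have hKsMs : kstar M K ≤ Cfsg.sigmaCore M := inf_le_left
  have hKscK : kstar M K ≤ Subgroup.centralizer (K : Set G) := inf_le_right
  -- a generator of `X`
  obtain ⟨x, hxX, hx1, -, -⟩ := Cfsg.Agent.Lib.Helper66.BG.exists_gen_of_card_prime hXp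
  have hxK : x ∈ K := hXK hxX
  obtain ⟨hNMX, hNMK, hXsig⟩ := h30c X hXK hXp
  -- (a) `X ≤ L_σ`, the `σ`-sets of `M` and `L` are disjoint, `Z ≤ L`
  have hXLs : X ≤ Cfsg.sigmaCore L := hXsig L hL hNX
  have hpσL : Nat.card X ∈ Cfsg.sigma L :=
    Cfsg.Agent.Lib.Helper67.BG.sigmaCore_isPi L _ hXp (Subgroup.card_dvd_of_le hXLs)
  have hpκM : Nat.card X ∈ Cfsg.kappa M := hK.2.1 _ hXp (Subgroup.card_dvd_of_le hXK)
  have hpσM : Nat.card X ∉ Cfsg.sigma M := hpκM.2.2.1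
  have hdisj : ∀ q : ℕ, q ∈ Cfsg.sigma M → q ∈ Cfsg.sigma L → False := by
    intro q hqM hqL
    obtain ⟨g, hg⟩ := h1378.2 M L hM hL ⟨q, hqM, hqL⟩
    apply hpσM
    have h1 := hpσL
    rw [hg, Cfsg.Agent.Lib.Helper27.BG.sigma_map_conj] at h1
    exact h1
  have hML : L ≠ M := by
    intro h
    rw [h] at hpσL
    exact hpσM hpσL
  have hZL : K ⊔ kstar M K ≤ L := hNMX.ge.trans (inf_le_right.trans hNX)
  have hK_le_L : K ≤ L := le_sup_left.trans hZL
  have hKsL : kstar M K ≤ L := le_sup_right.trans hZL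
  -- (b) fusion of `K*` takes place in `M`
  have hfus : ∀ y ∈ kstar M K, y ≠ 1 → ∀ g : G, g * y * g⁻¹ ∈ kstar M K → g ∈ M := by
    intro y hy hy1 g hgy
    by_contra hgM
    have h1 := h31a g hgM
    have h2 : g * y * g⁻¹ ∈ (⊥ : Subgroup G) := by
      rw [← h1]
      exact Subgroup.mem_inf.mpr ⟨hgy, conj_mem_map_conj g (hMsM (hKsMs hy))⟩
    rw [Subgroup.mem_bot] at h2
    apply hy1
    have h3 : y = g⁻¹ * (g * y * g⁻¹) * g := by group
    rw [h3, h2]
    group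
  have hCM : ∀ y ∈ kstar M K, y ≠ 1 → Subgroup.centralizer ({y} : Set G) ≤ M := by
    intro y hy hy1 c hc
    apply hfus y hy hy1 c
    have h1 : y * c = c * y := (Subgroup.mem_centralizer_iff.mp hc) y (Set.mem_singleton y)
    have h2 : c * y * c⁻¹ = y := by rw [← h1]; group
    rw [h2]
    exact hy
  -- (c) every nonidentity element of `K*` is a `κ(L)`-element
  have hκL : ∀ y ∈ kstar M K, y ≠ 1 → ∀ q : ℕ, q.Prime → q ∣ orderOf y → q ∈ Cfsg.kappa L := by
    intro y hy hy1 q hq hqy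
    have hyL : y ∈ L ⊓ Subgroup.centralizer ({x} : Set G) := by
      refine Subgroup.mem_inf.mpr ⟨hKsL hy, ?_⟩
      rw [Subgroup.mem_centralizer_iff]
      intro h hh
      rw [Set.mem_singleton_iff] at hh
      rw [hh]
      exact (Subgroup.mem_centralizer_iff.mp (hKscK hy)) x hxK
    have hσ : ∀ r : ℕ, r.Prime → r ∣ orderOf y → r ∉ Cfsg.sigma L := by
      intro r hr hry hrL
      exact hdisj r (Cfsg.Agent.Lib.Helper67.BG.sigmaCore_isPi M r hr
        (hry.trans (Subgroup.orderOf_dvd_natCard _ (hKsMs hy)))) hrL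
    rcases h1432 L hL x (hXLs hxX) hx1 y hyL hy1 hσ with ⟨h, -⟩ | ⟨-, -, -, huniq⟩
    · exact h q hq hqy
    · exact absurd (huniq M hM (hCM y hy hy1)).symm hML
  have hKsκ : ∀ q : ℕ, q.Prime → q ∣ Nat.card (kstar M K) → q ∈ Cfsg.kappa L := by
    intro q hq hqd
    haveI : Fact q.Prime := ⟨hq⟩
    obtain ⟨z, hz⟩ := exists_prime_orderOf_dvd_card' q hqd
    have hzo : orderOf (z : G) = q := by rw [Subgroup.orderOf_coe, hz]
    have hz1 : (z : G) ≠ 1 := by
      intro h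
      rw [h, orderOf_one] at hzo
      exact hq.one_lt.ne hzo
    exact hκL z z.2 hz1 q hq (by rw [hzo])
  -- an element `y` of prime order of `K*`
  obtain ⟨q, hq, hqd⟩ := Nat.exists_prime_and_dvd
    (fun h => hKs1 (Subgroup.card_eq_one.mp h) : Nat.card (kstar M K) ≠ 1)
  haveI : Fact q.Prime := ⟨hq⟩
  obtain ⟨y0, hy0⟩ := exists_prime_orderOf_dvd_card' q hqd
  obtain ⟨y, hydef⟩ : ∃ y : G, y = (y0 : G) := ⟨_, rfl⟩
  have hyKs : y ∈ kstar M K := hydef ▸ y0.2
  have hyo : orderOf y = q := by rw [hydef, Subgroup.orderOf_coe, hy0]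
  have hy1 : y ≠ 1 := by
    intro h
    rw [h, orderOf_one] at hyo
    exact hq.one_lt.ne hyo
  have hYp : (Nat.card (Subgroup.zpowers y)).Prime := by
    rw [Nat.card_zpowers, hyo]; exact hq
  have hYKs : Subgroup.zpowers y ≤ kstar M K := by
    rw [Subgroup.zpowers_le]; exact hyKs
  -- (d) the Hall `κ(L)`-subgroup `KL ≥ K*`
  have hsolL : Group.IsSolvable L := isSolvable_of_ne_top hG hL.1
  have hsolM : Group.IsSolvable M := isSolvable_of_ne_top hG hM.1
  obtain ⟨KL, hKLhall, hKsKL⟩ := Cfsg.Agent.Lib.Helper67.BG.exists_piHallOf_ge (Cfsg.kappa L) L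
    hsolL (kstar M K) hKsL hKsκ
  have hKL1 : KL ≠ ⊥ := by
    intro h
    rw [h] at hKsKL
    exact hKs1 (le_bot_iff.mp hKsKL)
  obtain ⟨g30a, -, g30c⟩ := h1430 L hL KL hKLhall hKL1
  obtain ⟨g31a, -, -, -⟩ := h1431 L hL KL hKLhall hKL1
  have hXCL : X ≤ kstar L KL := by
    intro x' hx'
    have h1 : x' ∈ Cfsg.sigmaCore L ⊓ Subgroup.centralizer ({y} : Set G) := by
      refine Subgroup.mem_inf.mpr ⟨hXLs hx', ?_⟩
      rw [Subgroup.mem_centralizer_iff]
      intro h hh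
      rw [Set.mem_singleton_iff] at hh
      rw [hh]
      exact ((Subgroup.mem_centralizer_iff.mp (hKscK hyKs)) x' (hXK hx')).symm
    rw [g30a y (hKsKL hyKs) hy1] at h1
    exact h1
  have hYKL : Subgroup.zpowers y ≤ KL := hYKs.trans hKsKL
  obtain ⟨hNLY, -, -⟩ := g30c (Subgroup.zpowers y) hYKL hYp
  have hNYM : Subgroup.normalizer ((Subgroup.zpowers y : Subgroup G) : Set G) ≤ M := by
    intro n hn
    have h1 := (Subgroup.mem_normalizer_iff.mp hn y).mp (Subgroup.mem_zpowers y)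
    exact hfus y hyKs hy1 n (hYKs h1)
  have hJM : KL ⊔ kstar L KL ≤ M := hNLY.ge.trans (inf_le_right.trans hNYM)
  have hKLM : KL ≤ M := le_sup_left.trans hJM
  have hCLM : kstar L KL ≤ M := le_sup_right.trans hJM
  -- (e) `KL ≤ Z`
  have hKLZ : KL ≤ K ⊔ kstar M K := by
    refine le_trans ?_ hNMX.le
    refine le_inf hKLM ?_
    intro k hk
    apply centralizer_le_normalizer' X
    rw [Subgroup.mem_centralizer_iff]
    intro h hh
    exact ((Subgroup.mem_centralizer_iff.mp ((Subgroup.mem_inf.mp (hXCL hh)).2)) k hk).symm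
  -- (f) `C_{L_σ}(KL)` is a `κ(M)`-group, hence lies in `K`
  have hCLκ : ∀ r : ℕ, r.Prime → r ∣ Nat.card (kstar L KL) → r ∈ Cfsg.kappa M := by
    intro r hr hrd
    haveI : Fact r.Prime := ⟨hr⟩
    obtain ⟨d0, hd0⟩ := exists_prime_orderOf_dvd_card' r hrd
    obtain ⟨d, hddef⟩ : ∃ d : G, d = (d0 : G) := ⟨_, rfl⟩
    have hdCL : d ∈ kstar L KL := hddef ▸ d0.2
    have hdo : orderOf d = r := by rw [hddef, Subgroup.orderOf_coe, hd0]
    have hd1 : d ≠ 1 := by
      intro h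
      rw [h, orderOf_one] at hdo
      exact hr.one_lt.ne hdo
    have hdM : d ∈ M ⊓ Subgroup.centralizer ({y} : Set G) := by
      refine Subgroup.mem_inf.mpr ⟨hCLM hdCL, ?_⟩
      rw [Subgroup.mem_centralizer_iff]
      intro h hh
      rw [Set.mem_singleton_iff] at hh
      rw [hh]
      exact (Subgroup.mem_centralizer_iff.mp (Subgroup.mem_inf.mp hdCL).2) y (hKsKL hyKs)
    have hσ : ∀ s : ℕ, s.Prime → s ∣ orderOf d → s ∉ Cfsg.sigma M := by
      intro s hs hsd hsM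
      exact hdisj s hsM (Cfsg.Agent.Lib.Helper67.BG.sigmaCore_isPi L s hs
        (hsd.trans (Subgroup.orderOf_dvd_natCard _ (Subgroup.mem_inf.mp hdCL).1)))
    rcases h1432 M hM y (hKsMs hyKs) hy1 d hdM hd1 hσ with ⟨h, -⟩ | ⟨-, -, -, huniq⟩
    · exact h r hr (by rw [hdo])
    · exfalso
      have hCL' : Subgroup.centralizer ({d} : Set G) ≤ L := by
        intro c hc
        by_contra hcL
        have h1 := g31a c hcL
        have hmem : d ∈ (⊥ : Subgroup G) := by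
          rw [← h1]
          refine Subgroup.mem_inf.mpr ⟨hdCL, ?_⟩
          rw [mem_map_conj_iff]
          have e : c⁻¹ * d * c = d := by
            have h2 : d * c = c * d :=
              (Subgroup.mem_centralizer_iff.mp hc) d (Set.mem_singleton d)
            rw [mul_assoc, h2]; group
          rw [e]
          exact hLsL (Subgroup.mem_inf.mp hdCL).1
        exact hd1 (Subgroup.mem_bot.mp hmem)
      exact hML (huniq L hL hCL')
  obtain ⟨K', hK', hCLK'⟩ := Cfsg.Agent.Lib.Helper67.BG.exists_piHallOf_ge (Cfsg.kappa M) M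
    hsolM (kstar L KL) hCLM hCLκ
  obtain ⟨m, hmM, hK'eq⟩ := exists_conj_of_isPiHallOf hsolM hK hK'
  have hmZ : m ∈ K ⊔ kstar M K := by
    by_contra hmZ
    have h1 := h31b m hmM hmZ
    have h3 : x ∈ K.map (MulAut.conj m).toMonoidHom := by
      rw [← hK'eq]
      exact hCLK' (hXCL hxX)
    have h2 : x ∈ (⊥ : Subgroup G) := by
      rw [← h1]
      exact Subgroup.mem_inf.mpr ⟨hxK, h3⟩
    exact hx1 (Subgroup.mem_bot.mp h2)
  have hmN : m ∈ Subgroup.normalizer (K : Set G) := by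
    have h1 : m ∈ M ⊓ Subgroup.normalizer (K : Set G) := hNMK.ge hmZ
    exact (Subgroup.mem_inf.mp h1).2
  have hK'K : K' = K := by
    rw [hK'eq]
    exact Subgroup.mem_normalizer_iff_map_conj_eq.1 hmN
  have hCLK : kstar L KL ≤ K := by
    rw [← hK'K]
    exact hCLK'
  -- (g) `KL · C_{L_σ}(KL) = Z`
  have hZeq : KL ⊔ kstar L KL = K ⊔ kstar M K := by
    apply le_antisymm
    · exact sup_le hKLZ (hCLK.trans le_sup_left)
    · refine sup_le ?_ (hKsKL.trans le_sup_left)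
      refine le_trans ?_ hNLY.le
      refine le_inf hK_le_L ?_
      intro k hk
      apply centralizer_le_normalizer' (Subgroup.zpowers y)
      rw [Subgroup.mem_centralizer_iff]
      intro h hh
      exact ((Subgroup.mem_centralizer_iff.mp (hKscK (hYKs hh))) k hk).symm
  exact ⟨KL, ⟨hL, hKLhall, hKL1, hZeq⟩, hKsKL, hXCL, hCLK⟩

end Cfsg.Agent.Lib.Helper94.BG
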